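import Mathlib
import Cfsg.Agent.Lib.ClassOMN.Tools

/-!
Groups whose class sizes are `1`, `n`, `m`, `n * m` with `n`, `m` coprime: basic facts.
-/

set_option autoImplicit false

namespace Cfsg.Agent.Lib.ClassNMN

open Subgroup ClassOMN

universe u

variable {G : Type u} [Group G]

/-- The class sizes are exactly `1`, `n`, `m`, `n * m`. -/
structure Hyp (G : Type u) [Group G] (n m : ℕ) : Prop where
  hn : 1 < n
  hm : 1 < m
  hcop : n.Coprime m
  range : Set.range (fun x : G => (cl x).index) = ({1, n, m, n * m} : Set ℕ)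

variable {n m : ℕ}

namespace Hyp

theorem symm (h : Hyp G n m) : Hyp G m n where
  hn := h.hm
  hm := h.hn
  hcop := h.hcop.symm
  range := by
    rw [h.range, mul_comm n m, Set.insert_comm n m]

theorem cases (h : Hyp G n m) (x : G) : idx x = 1 ∨ idx x = n ∨ idx x = m ∨ idx x = n * m := by
  have : idx x ∈ ({1, n, m, n * m} : Set ℕ) := h.range ▸ ⟨x, rfl⟩
  simpa using this

theorem noncentral (h : Hyp G n m) {x : G} (hx : x ∉ center G) :
    idx x = n ∨ idx x = m ∨ idx x = n * m :=
  (h.cases x).resolve_left fun e => hx (idx_eq_one_iff.1 e)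

theorem exists_n (h : Hyp G n m) : ∃ x : G, idx x = n := by
  have : n ∈ Set.range (fun x : G => (cl x).index) := h.range ▸ by simp
  exact this

theorem exists_nm (h : Hyp G n m) : ∃ x : G, idx x = n * m := by
  have : n * m ∈ Set.range (fun x : G => (cl x).index) := h.range ▸ by simp
  exact this

theorem not_dvd (h : Hyp G n m) {r : ℕ} (hr : r.Prime) (hrn : r ∣ n) : ¬ r ∣ m := fun hd =>
  hr.ne_one (Nat.dvd_one.1 (h.hcop.gcd_eq_one ▸ Nat.dvd_gcd hrn hd))

theorem not_dvd' (h : Hyp G n m) {r : ℕ} (hr : r.Prime) (hrm : r ∣ m) : ¬ r ∣ n :=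
  h.symm.not_dvd hr hrm

theorem n_lt (h : Hyp G n m) : n < n * m :=
  lt_mul_of_one_lt_right (by have := h.hn; omega) h.hm

theorem n_ne_m (h : Hyp G n m) : n ≠ m := fun e => by
  have := h.hcop
  rw [e, Nat.coprime_self] at this
  have := h.hm
  omega

theorem m_lt (h : Hyp G n m) : m < n * m :=
  lt_mul_of_one_lt_left (by have := h.hm; omega) h.hn

theorem not_mem_center (h : Hyp G n m) {x : G} (hx : idx x = n ∨ idx x = m ∨ idx x = n * m) :
    x ∉ center G := fun hc => by
  have := idx_eq_one_iff.2 hc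
  have := h.hn; have := h.hm; have := h.n_lt
  omega

theorem dvd_nm (h : Hyp G n m) (x : G) : idx x ∣ n * m := by
  rcases h.cases x with e | e | e | e <;> rw [e]
  exacts [one_dvd _, dvd_mul_right _ _, dvd_mul_left _ _]

theorem eq_nm (h : Hyp G n m) {x : G} (h1 : n ∣ idx x) (h2 : m ∣ idx x) : idx x = n * m :=
  Nat.dvd_antisymm (h.dvd_nm x) (h.hcop.mul_dvd_of_dvd_of_dvd h1 h2)

theorem of_dvd (h : Hyp G n m) {x : G} (h1 : m ∣ idx x) : idx x = m ∨ idx x = n * m := by
  rcases h.cases x with e | e | e | e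
  · have := h.hm; rw [e] at h1
    have := Nat.le_of_dvd one_pos h1
    omega
  · have := h.hcop.gcd_eq_one
    rw [e] at h1
    rw [Nat.gcd_eq_right h1] at this
    have := h.hm
    omega
  · exact Or.inl e
  · exact Or.inr e

section Fin

variable [Finite G]

theorem eq_of_le_nm (h : Hyp G n m) {x y : G} (hle : cl x ≤ cl y) (hy : idx y = n * m) :
    cl x = cl y :=
  cl_eq_of_le_of_idx hle (Nat.dvd_antisymm (hy ▸ h.dvd_nm x) (index_dvd_of_le hle))

theorem eq_of_le_n (h : Hyp G n m) {x y : G} (hle : cl x ≤ cl y) (hx : idx x = n)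
    (hy : y ∉ center G) : cl x = cl y := by
  refine cl_eq_of_le_of_idx hle ?_
  have hd : idx y ∣ idx x := index_dvd_of_le hle
  rw [hx] at hd ⊢
  rcases h.noncentral hy with e | e | e
  · exact e.symm
  · rw [e] at hd
    have := h.hcop.gcd_eq_one
    rw [Nat.gcd_eq_right hd] at this
    have := h.hm
    omega
  · rw [e] at hd
    have := Nat.le_of_dvd (by have := h.hn; omega) hd
    have := h.n_lt
    omega

theorem primary_of_n (h : Hyp G n m) :
    ∃ s, s.Prime ∧ ∃ u : G, IsEl s u ∧ idx u = n := by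
  obtain ⟨x, hx⟩ := h.exists_n
  obtain ⟨s, hs, -, u, hu, hus, huZ⟩ := exists_primary (h.not_mem_center (Or.inl hx))
  refine ⟨s, hs, u, hus, ?_⟩
  rw [idx, ← h.eq_of_le_n (cl_le_of_mem_zpowers hu) hx huZ]
  exact hx

/-- A maximal centralizer is centralized by its elements of coprime order. -/
theorem cl_le_of_nm (h : Hyp G n m) {w c : G} (hw : idx w = n * m) (hc : c ∈ cl w)
    (hco : (orderOf w).Coprime (orderOf c)) : cl w ≤ cl c := by
  have hle := cl_mul_le (mem_cl.1 hc).symm hco
  rw [← h.eq_of_le_nm (hle.trans inf_le_left) hw]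
  exact hle.trans inf_le_right

theorem cl_eq_of_nm (h : Hyp G n m) {w c : G} (hw : idx w = n * m) (hc : c ∈ cl w)
    (hco : (orderOf w).Coprime (orderOf c)) (hc' : idx c = n * m) : cl w = cl c :=
  le_antisymm (h.cl_le_of_nm hw hc hco) (h.cl_le_of_nm hc' (mem_cl_comm hc) hco.symm)

/-- The product of commuting elements of coprime orders in classes of sizes `n` and `m`. -/
theorem idx_mul (h : Hyp G n m) {a b : G} (hc : b ∈ cl a) (hco : (orderOf a).Coprime (orderOf b))
    (ha : idx a = n) (hb : idx b = m) : idx (a * b) = n * m := by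
  have hle := cl_mul_le (mem_cl.1 hc).symm hco
  exact h.eq_nm (ha ▸ index_dvd_of_le (hle.trans inf_le_left))
    (hb ▸ index_dvd_of_le (hle.trans inf_le_right))

theorem kk_one_lt (h : Hyp G n m) {z : G} (hz : idx z = n * m) : 1 < kk z := by
  refine lt_of_le_of_ne (kk_pos z) fun e => h.not_mem_center (Or.inr (Or.inr hz)) ?_
  exact relIndex_eq_one.1 e.symm (self_mem_cl z)

theorem kk_nm (h : Hyp G n m) {x z : G} (hx : idx x = n) (hz : idx z = n * m) :
    kk x = kk z * m := by
  have e1 := kk_mul_idx x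
  rw [hx, ← kk_mul_idx z, hz] at e1
  exact Nat.eq_of_mul_eq_mul_right (by have := h.hn; omega) (e1.trans (by ring))

theorem kk_eq (h : Hyp G n m) {x z : G} (hx : idx x = n * m) (hz : idx z = n * m) :
    kk x = kk z := by
  have e1 := kk_mul_idx x
  rw [hx, ← kk_mul_idx z, hz] at e1
  exact Nat.eq_of_mul_eq_mul_right (by have := h.hn; have := h.hm; positivity) e1

theorem dvd_kk_n (h : Hyp G n m) {r : ℕ} {x z : G} (hx : idx x = n) (hz : idx z = n * m)
    (hd : r ∣ kk z) : r ∣ kk x := by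
  rw [h.kk_nm hx hz]
  exact hd.mul_right m

theorem dvd_kk_m (h : Hyp G n m) {r : ℕ} {x z : G} (hx : idx x = m) (hz : idx z = n * m)
    (hd : r ∣ kk z) : r ∣ kk x :=
  h.symm.dvd_kk_n hx (hz.trans (mul_comm n m)) hd

/-- Decomposition along two centralizers of coprime indices. -/
theorem exists_mul (h : Hyp G n m) {a b : G} (ha : idx a = n) (hb : idx b = m) (g : G) :
    ∃ c ∈ cl a, ∃ d ∈ cl b, g = c * d := by
  classical
  let A := cl a
  let B := cl b
  let f : A ⧸ B.subgroupOf A → G ⧸ B :=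
    Quotient.map' (fun x => (x : G)) fun x y hxy => by
      rw [QuotientGroup.leftRel_apply] at hxy ⊢
      simpa [mem_subgroupOf] using hxy
  have hinj : Function.Injective f := by
    rintro ⟨x⟩ ⟨y⟩ e
    have e' : (QuotientGroup.mk (x : G) : G ⧸ B) = QuotientGroup.mk (y : G) := e
    rw [QuotientGroup.eq] at e'
    exact QuotientGroup.eq.2 (mem_subgroupOf.2 (by simpa using e'))
  have hcard : Nat.card (A ⧸ B.subgroupOf A) = Nat.card (G ⧸ B) := by
    rw [← index_eq_card, ← index_eq_card]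
    change B.relIndex A = B.index
    have e : B.relIndex A * A.index = (A ⊓ B).index := by
      rw [← inf_relIndex_left, relIndex_mul_index inf_le_left]
    have h2 : m ∣ (A ⊓ B).index := hb ▸ index_dvd_of_le inf_le_right
    rw [← e, show A.index = n from ha] at h2
    have h3 := Nat.le_of_dvd (Nat.pos_of_ne_zero (fun hz => index_ne_zero_of_finite
      (H := B.subgroupOf A) hz)) (h.hcop.symm.dvd_of_dvd_mul_right h2)
    rw [show B.index = m from hb]
    exact le_antisymm ((show B.relIndex A ≤ B.index from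
      relIndex_le_of_le_right le_top index_ne_zero_of_finite |>.trans (relIndex_top_right B).le).trans
        hb.le) h3
  have hsur := ((Nat.bijective_iff_injective_and_card f).2 ⟨hinj, hcard⟩).2
  obtain ⟨⟨c⟩, hc⟩ := hsur (QuotientGroup.mk g)
  have hc' : (QuotientGroup.mk (c : G) : G ⧸ B) = QuotientGroup.mk g := hc
  rw [QuotientGroup.eq] at hc'
  exact ⟨c, c.2, _, hc', by group⟩

/-- If some conjugate of `b` commutes with `a`, then all do. -/
theorem pairing (h : Hyp G n m) {a b : G} (ha : idx a = n) (hb : idx b = m) {g : G}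
    (hg : g * b * g⁻¹ ∈ cl a) (g' : G) : g' * b * g'⁻¹ ∈ cl a := by
  have key : ∀ g : G, g * b * g⁻¹ ∈ cl a ↔ b ∈ cl a := fun g => by
    obtain ⟨c, hc, d, hd, rfl⟩ := h.exists_mul ha hb g
    have e : c * d * b * (c * d)⁻¹ = c * b * c⁻¹ := by
      have := mem_cl.1 hd
      calc c * d * b * (c * d)⁻¹ = c * (d * b) * d⁻¹ * c⁻¹ := by group
        _ = c * (b * d) * d⁻¹ * c⁻¹ := by rw [this]
        _ = _ := by group
    rw [e]
    constructor
    · intro hh
      have := mul_mem (mul_mem (inv_mem hc) hh) hc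
      simpa [mul_assoc] using this
    · exact fun hh => mul_mem (mul_mem hc hh) (inv_mem hc)
  exact (key g').2 ((key g).1 hg)

theorem pairing_closure (h : Hyp G n m) {a b : G} (ha : idx a = n) (hb : idx b = m)
    (hab : b ∈ cl a) : normalClosure ({a} : Set G) ≤ cl b := by
  refine closure_le _ |>.2 fun c hc => ?_
  obtain ⟨a', rfl, hac⟩ := Group.mem_conjugatesOfSet_iff.1 hc
  obtain ⟨g, rfl⟩ := isConj_iff.1 hac
  refine mem_cl_comm ?_
  rw [cl_cj, mem_cj]
  have := h.pairing ha hb (g := 1) (by simpa using hab) g⁻¹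
  simpa using this

end Fin

end Hyp

section Fin

variable [Finite G]

/-- A conjugate of an element with class size prime to `r` commutes with a given `r`-element. -/
theorem exists_conj_mem {r : ℕ} [Fact r.Prime] {y w : G} (hy : ¬ r ∣ idx y) (hw : IsEl r w) :
    ∃ g : G, g * y * g⁻¹ ∈ cl w := by
  obtain ⟨R, hR⟩ := exists_sylow_le (H := cl y) hy
  obtain ⟨W, hW⟩ := exists_sylow_mem hw
  obtain ⟨g, hg⟩ := sylow_eq_cj R W
  refine ⟨g, mem_cl_comm ?_⟩
  rw [cl_cj]
  exact cj_mono hR (hg ▸ hW)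

/-- Moving an element of `q`-power order into a subgroup of index prime to `q`. -/
theorem exists_conj_into {q : ℕ} [Fact q.Prime] {T H : Subgroup G} (hT : IsPGroup q T)
    (hTH : T ≤ H) (hq : ¬ q ∣ T.relIndex H) {x : G} (hx : x ∈ H) (hxq : IsEl q x) :
    ∃ h ∈ H, h * x * h⁻¹ ∈ T := by
  let S : Sylow q H := (hT.comap_of_injective H.subtype H.subtype_injective).toSylow hq
  obtain ⟨W, hW⟩ : ∃ W : Sylow q H, (⟨x, hx⟩ : H) ∈ (W : Subgroup H) :=
    exists_sylow_mem (by rwa [IsEl, Subgroup.orderOf_mk])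
  obtain ⟨h, hh⟩ := sylow_eq_cj W S
  refine ⟨h, h.2, ?_⟩
  have : h * (⟨x, hx⟩ : H) * h⁻¹ ∈ (S : Subgroup H) := by
    rw [hh, mem_cj]
    simpa [mul_assoc] using hW
  simpa [S, mem_subgroupOf] using this

/-- A Sylow subgroup of a subgroup, seen in the group. -/
theorem exists_sylow_sub (q : ℕ) [Fact q.Prime] (H : Subgroup G) :
    ∃ T ≤ H, IsPGroup q T ∧ ¬ q ∣ T.relIndex H := by
  obtain ⟨T⟩ : Nonempty (Sylow q H) := inferInstance
  refine ⟨(T : Subgroup H).map H.subtype, map_subtype_le _, T.2.map _, ?_⟩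
  have e : ((T : Subgroup H).map H.subtype).relIndex H = (T : Subgroup H).index := by
    rw [relIndex, subgroupOf, comap_map_eq_self_of_injective H.subtype_injective]
  exact e ▸ T.not_dvd_index

/-- Changing the ambient group of a Sylow subgroup of a subgroup. -/
theorem not_dvd_relIndex {q : ℕ} (hq : q.Prime) {T H K : Subgroup G} (hTH : T ≤ H) (hTK : T ≤ K)
    (h : ¬ q ∣ T.relIndex H) {c : ℕ} (hc : ¬ q ∣ c) (hi : H.index = c * K.index) :
    ¬ q ∣ T.relIndex K := by
  have e1 := relIndex_mul_index hTH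
  rw [← relIndex_mul_index hTK, hi, ← mul_assoc] at e1
  have e2 := Nat.eq_of_mul_eq_mul_right (Nat.pos_of_ne_zero index_ne_zero_of_finite) e1
  rw [← e2]
  exact fun hd => (hq.dvd_mul.1 hd).elim h hc

end Fin

end Cfsg.Agent.Lib.ClassNMN
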