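import Mathlib
import Cfsg.Agent.Lib.ClassNMN.Basic
import Cfsg.Agent.S4127

/-!
Class sizes `1`, `n`, `m`, `n * m` with a primary element of class size `m` of a prime not dividing `n`.
-/

set_option autoImplicit false

namespace Cfsg.Agent.Lib.ClassNMN

open Subgroup ClassOMN

universe u

variable {G : Type u} [Group G]

/-- Primary elements of different primes commute. -/
def PrimaryComm (C : Subgroup G) : Prop :=
  ∀ (r s : ℕ), r.Prime → s.Prime → r ≠ s → ∀ a ∈ C, ∀ b ∈ C, IsEl r a → IsEl s b → a * b = b * a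

variable [Finite G]

theorem PrimaryComm.mem_sylow {C : Subgroup G} (hC : PrimaryComm C) {r : ℕ} [hr : Fact r.Prime]
    (R : Sylow r G) (hR : (R : Subgroup G) ≤ C) {a : G} (ha : a ∈ C) (har : IsEl r a) :
    a ∈ (R : Subgroup G) := by
  set N := normalizer ((R : Subgroup G) : Set G) ⊓ C
  have hN : C ≤ N := by
    by_contra hcon
    obtain ⟨s, hs, hsd⟩ := Nat.exists_prime_and_dvd (fun e => hcon (relIndex_eq_one.1 e) :
      N.relIndex C ≠ 1)
    by_cases hsr : s = r
    · subst hsr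
      exact sylow_idx_not_dvd R (le_inf le_normalizer hR)
        (hsd.trans (Dvd.intro _ (relIndex_mul_index inf_le_right)))
    · have : Fact s.Prime := ⟨hs⟩
      obtain ⟨T, hTC, hT, hTi⟩ := exists_sylow_sub s C
      have hTN : T ≤ N := fun b hb => mem_inf.2 ⟨mem_normalizer_iff.2 fun c => ⟨fun hc => by
        rw [hC s r hs hr.out hsr b (hTC hb) c (hR hc) (IsEl.of_mem_pGroup hT hb)
          (IsEl.of_mem_pGroup R.2 hc), mul_inv_cancel_right]; exact hc, fun hc => by
        have e := hC s r hs hr.out hsr b (hTC hb) _ (hR hc) (IsEl.of_mem_pGroup hT hb)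
          (IsEl.of_mem_pGroup R.2 hc)
        have : c = b * c * b⁻¹ := by
          calc c = b⁻¹ * (b * c * b⁻¹ * b) := by group
            _ = b⁻¹ * (b * (b * c * b⁻¹)) := by rw [e]
            _ = _ := by group
        rwa [this]⟩, hTC hb⟩
      exact hTi (hsd.trans (Dvd.intro_left _ (relIndex_mul_relIndex _ _ _ hTN inf_le_right)))
  have hn : zpowers a ≤ normalizer ((R : Subgroup G) : Set G) :=
    zpowers_le.2 (mem_inf.1 (hN ha)).1
  exact (R.3 (har.isPGroup.to_sup_of_normal_right' R.2 hn) le_sup_right) ▸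
    mem_sup_left (mem_zpowers a)

theorem rel_centralizer (C : Subgroup G) (z : C) :
    Subgroup.centralizer ({z} : Set C) = (cl (z : G)).subgroupOf C := by
  ext c
  rw [mem_subgroupOf, mem_cl, mem_centralizer_singleton_iff]
  exact Subtype.ext_iff

variable {n m : ℕ}

theorem Hyp.primaryComm (h : Hyp G n m) {t : ℕ} (ht : t.Prime) {y : G} (hyt : IsEl t y)
    (hy : idx y = m) (htn : ¬ t ∣ n) : PrimaryComm (cl y) := by
  classical
  have : Fact t.Prime := ⟨ht⟩
  set C := cl y with hC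
  let K := (cl y : Subgroup G)
  -- relative class sizes of elements of order prime to `t`
  have hrel : ∀ z : C, ¬ t ∣ orderOf z →
      (Subgroup.centralizer ({z} : Set C)).index = 1 ∨
        (Subgroup.centralizer ({z} : Set C)).index = n := by
    intro z hz
    rw [rel_centralizer]
    change (cl (z : G)).relIndex C = 1 ∨ (cl (z : G)).relIndex C = n
    have hco := hyt.coprime ht (show ¬ t ∣ orderOf (z : G) by rwa [Subgroup.orderOf_coe])
    have e : cl (y * z) = cl (z : G) ⊓ C :=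
      le_antisymm ((cl_mul_le (mem_cl.1 z.2).symm hco).trans (inf_comm _ _).le)
        ((inf_comm _ _).le.trans (inf_le_cl_mul y z))
    have e1 : (cl (z : G)).relIndex C * m = idx (y * z) := by
      rw [idx, e, ← hy, ← inf_relIndex_right, relIndex_mul_index inf_le_right]
    rcases h.of_dvd (Dvd.intro_left _ e1 : m ∣ idx (y * z)) with e2 | e2
    · exact Or.inl (Nat.eq_of_mul_eq_mul_right (by have := h.hm; omega) (e1.trans (e2.trans (one_mul m).symm)))
    · exact Or.inr (Nat.eq_of_mul_eq_mul_right (by have := h.hm; omega) (e1.trans e2))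
  obtain ⟨P0⟩ : Nonempty (Sylow t C) := inferInstance
  have htop := S4127.sup_centralizer_eq_top (G := C) (p := t) (fun z hz hd => by
    rcases hrel z (ht.coprime_iff_not_dvd.1 hz.symm) with e | e
    · rw [e] at hd; exact ht.not_dvd_one hd
    · rw [e] at hd; exact htn hd) P0
  set H0 := Subgroup.centralizer ((P0 : Subgroup C) : Set C)
  have hP0 : (P0 : Subgroup C).Normal := by
    rw [← normalizer_eq_top_iff, eq_top_iff, ← htop, sup_le_iff]
    exact ⟨le_normalizer, Components.centralizer_le_normalizer _⟩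
  have hH0 : H0.Normal := Subgroup.normal_centralizer
  have hidx : H0.index = H0.relIndex (P0 : Subgroup C) := by
    rw [← relIndex_top_right, ← htop, relIndex_sup_right]
  have hH0' : ∀ z : C, ¬ t ∣ orderOf z → z ∈ H0 := by
    intro z hz
    obtain ⟨j, hj⟩ := P0.2.index (H0.subgroupOf (P0 : Subgroup C))
    refine zpow_mem_of_coprime (a := orderOf z) (b := H0.index)
      (by rw [pow_orderOf_eq_one]; exact one_mem _) (pow_index_mem _ _) ?_
    rw [hidx, show H0.relIndex (P0 : Subgroup C) = t ^ j from hj]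
    exact Nat.Coprime.pow_right j ((ht.coprime_iff_not_dvd.2 hz).symm)
  have hPmem : ∀ z : C, IsEl t z → z ∈ (P0 : Subgroup C) := by
    intro z hz
    obtain ⟨W, hW⟩ := exists_sylow_mem hz
    obtain ⟨g, hg⟩ := sylow_eq_cj P0 W
    rw [hg, mem_cj] at hW
    simpa [mul_assoc] using hP0.conj_mem _ hW g
  have hPH : ∀ a ∈ (P0 : Subgroup C), ∀ b ∈ H0, a * b = b * a := fun a ha b hb =>
    mem_centralizer_iff.1 hb a ha
  -- two class sizes in `H0`
  have hcond : Hall.TwoClass.Cond H0 n := by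
    intro z hzZ
    obtain ⟨v, hv, w, hw, e, hvt, hwt⟩ := exists_decomp (z : C) ht
    have hwH : w ∈ H0 := hH0' w hwt
    have hvH : v ∈ H0 := zpowers_le.2 z.2 hv
    have hvc : ∀ c : C, c * v = v * c := by
      have hle : ⊤ ≤ cl v := by
        rw [← htop]
        exact sup_le (fun a ha => mem_cl.2 (hPH a ha v hvH))
          (fun b hb => mem_cl.2 (hPH v (hPmem v hvt) b hb).symm)
      exact fun c => mem_cl.1 (hle (mem_top c))
    have hcl : cl (z : C) = cl w := by
      ext c
      rw [mem_cl, mem_cl, e, ← mul_assoc, hvc c, mul_assoc, mul_assoc v w c]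
      exact ⟨mul_left_cancel, congrArg (v * ·)⟩
    have hsup : cl w ⊔ H0 = ⊤ := by
      rw [← htop, eq_comm]
      refine le_antisymm (sup_le ?_ le_sup_right) (htop ▸ le_top)
      exact fun a ha => mem_sup_left (mem_cl.2 (hPH a ha w hwH))
    have e2 : (cl w).relIndex H0 = (cl w).index := by
      have a1 := relIndex_mul_index (inf_le_left : cl w ⊓ H0 ≤ cl w)
      have a2 := relIndex_mul_index (inf_le_right : cl w ⊓ H0 ≤ H0)
      rw [inf_relIndex_left, ← relIndex_sup_right, hsup, relIndex_top_right] at a1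
      rw [inf_relIndex_right, ← a1, mul_comm H0.index] at a2
      exact Nat.eq_of_mul_eq_mul_right (Nat.pos_of_ne_zero index_ne_zero_of_finite) a2
    have e3 : (cl z).index = (cl w).index := by
      rw [← e2, ← hcl]
      change _ = ((cl (z : C)).subgroupOf H0).index
      rw [← rel_centralizer]
    change (cl z).index = n
    rcases hrel w hwt with e4 | e4
    · exact absurd (mem_center_of_cl (index_eq_one.1 (e3.trans e4))) hzZ
    · exact e3.trans e4
  -- commutation of primary elements in `H0`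
  have hH : ∀ (r s : ℕ), r.Prime → s.Prime → r ≠ s → ∀ a b : H0, IsEl r a → IsEl s b →
      a * b = b * a := by
    intro r s hr hs hrs a b ha hb
    by_cases hex : ∃ z : H0, z ∉ center H0
    · have : Fact r.Prime := ⟨hr⟩
      have : Fact s.Prime := ⟨hs⟩
      by_cases hrn : r ∣ n
      · have hsn : ¬ s ∣ n := fun hd => hrs (Hall.TwoClass.one_prime hcond hex hr hs hrn hd)
        obtain ⟨R, hR⟩ := exists_sylow_mem hb
        exact mem_center_iff.1 ((Hall.TwoClass.sylow_central_iff hcond hex R).2 hsn hR) a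
      · obtain ⟨R, hR⟩ := exists_sylow_mem ha
        exact (mem_center_iff.1 ((Hall.TwoClass.sylow_central_iff hcond hex R).2 hrn hR) b).symm
    · push Not at hex
      exact (mem_center_iff.1 (hex a) b).symm
  intro r s hr hs hrs a ha b hb har hbs
  have har' : IsEl r (⟨a, ha⟩ : C) := by rwa [IsEl, Subgroup.orderOf_mk]
  have hbs' : IsEl s (⟨b, hb⟩ : C) := by rwa [IsEl, Subgroup.orderOf_mk]
  suffices (⟨a, ha⟩ : C) * ⟨b, hb⟩ = ⟨b, hb⟩ * ⟨a, ha⟩ from congrArg Subtype.val this
  by_cases hrt : r = t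
  · subst hrt
    exact hPH _ (hPmem _ har') _ (hH0' _ (hbs'.not_dvd hs hr hrs.symm))
  · have haH := hH0' _ (har'.not_dvd hr ht hrt)
    by_cases hst : s = t
    · subst hst
      exact (hPH _ (hPmem _ hbs') _ haH).symm
    · have hbH := hH0' _ (hbs'.not_dvd hs ht hst)
      exact congrArg Subtype.val (hH r s hr hs hrs ⟨_, haH⟩ ⟨_, hbH⟩
        (by rwa [IsEl, Subgroup.orderOf_mk]) (by rwa [IsEl, Subgroup.orderOf_mk]))

/-- One centralizer pins down the prime of `n`. -/
theorem Hyp.prime_of_alpha (h : Hyp G n m) {t s : ℕ} (ht : t.Prime) (hs : s.Prime) {y x : G}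
    (hyt : IsEl t y) (hy : idx y = m) (htn : ¬ t ∣ n) (hxs : IsEl s x) (hx : idx x = n) :
    y ∈ cl x ∧ ∀ r, r.Prime → r ∣ n → r = s := by
  have : Fact t.Prime := ⟨ht⟩
  have hxy : y ∈ cl x := by
    obtain ⟨T, hT⟩ := exists_sylow_le (H := cl x) (show ¬ t ∣ idx x by rw [hx]; exact htn)
    obtain ⟨W, hW⟩ := exists_sylow_mem hyt
    obtain ⟨g, hg⟩ := sylow_eq_cj T W
    rw [hg, mem_cj] at hW
    simpa using h.pairing hx hy (g := g⁻¹) (by simpa using hT hW) 1
  refine ⟨hxy, fun r hr hrn => ?_⟩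
  by_contra hrs
  have : Fact r.Prime := ⟨hr⟩
  obtain ⟨R, hR⟩ := exists_sylow_le (H := cl y) (show ¬ r ∣ idx y by rw [hy]; exact h.not_dvd hr hrn)
  refine sylow_idx_not_dvd R (H := cl x) (fun a ha => mem_cl.2 ?_) (hrn.trans (dvd_of_eq hx.symm))
  exact h.primaryComm ht hyt hy htn r s hr hs hrs a (hR ha) x (mem_cl_comm hxy)
    (IsEl.of_mem_pGroup R.2 ha) hxs

/-- A Sylow subgroup for the prime of `m` is normal. -/
theorem Hyp.normal_sylow (h : Hyp G n m) {r q : ℕ} [hr : Fact r.Prime] [hq : Fact q.Prime]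
    (hrn : r ∣ n) (hqm : q ∣ m) {x y : G} (hxr : IsEl r x) (hx : idx x = n) (hyq : IsEl q y)
    (hy : idx y = m) (Q : Sylow q G) : (Q : Subgroup G).Normal := by
  have hrm := h.not_dvd hr.out hrn
  have hqn := h.not_dvd' hq.out hqm
  have hrq := (fun e => hrm (e ▸ hqm) : r ≠ q)
  set W := ⨅ R : Sylow r G, (R : Subgroup G) with hW
  have hWn : ∀ g : G, ∀ a ∈ W, g * a * g⁻¹ ∈ W := by
    intro g a ha
    rw [hW, mem_iInf] at ha ⊢
    intro R
    have := ha (g⁻¹ • R)
    rw [Sylow.coe_subgroup_smul, mem_pointwise_smul_iff_inv_smul_mem] at this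
    simpa [mul_assoc] using this
  have hxW : ∀ x' : G, IsEl r x' → idx x' = n → x' ∈ W := by
    intro x' hx'r hx'
    rw [hW, mem_iInf]
    intro R
    obtain ⟨R0, hR0⟩ := exists_sylow_le (H := cl y) (show ¬ r ∣ idx y by rw [hy]; exact hrm)
    obtain ⟨g, hg⟩ := sylow_eq_cj R0 R
    have hle : (R : Subgroup G) ≤ cl (g * y * g⁻¹) := by rw [cl_cj, hg]; exact cj_mono hR0
    exact (h.primaryComm hq.out (hyq.cj g) ((idx_cj g y).trans hy) hqn).mem_sylow R hle
      (mem_cl_comm (h.prime_of_alpha hq.out hr.out (hyq.cj g) ((idx_cj g y).trans hy) hqn hx'r hx').1)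
      hx'r
  obtain ⟨R⟩ : Nonempty (Sylow r G) := inferInstance
  have hWR : W ≤ (R : Subgroup G) := iInf_le (fun R : Sylow r G => (R : Subgroup G)) R
  obtain ⟨d, hdW, hdZ, -, hd⟩ := exists_y (S := (R : Subgroup G)) R.2 hWR
    (fun g _ => hWn g) ⟨x, hxW x hxr hx, h.not_mem_center (Or.inl hx)⟩
  have hdr : IsEl r d := IsEl.of_mem_pGroup R.2 (hWR hdW)
  have hQd : ∀ Q' : Sylow q G, (Q' : Subgroup G) ≤ cl d := by
    intro Q'
    obtain ⟨Q0, hQ0⟩ := exists_sylow_le (H := cl x) (show ¬ q ∣ idx x by rw [hx]; exact hqn)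
    obtain ⟨g, hg⟩ := sylow_eq_cj Q0 Q'
    set e := g * x * g⁻¹ with he
    have hei : idx e = n := (idx_cj g x).trans hx
    have hQe : (Q' : Subgroup G) ≤ cl e := by rw [he, cl_cj, hg]; exact cj_mono hQ0
    have heR : e ∈ (R : Subgroup G) := hWR (hxW e (hxr.cj g) hei)
    intro u hu
    have huq := IsEl.of_mem_pGroup Q'.2 hu
    set t0 := d⁻¹ * (u * d * u⁻¹) with ht0
    have ht0W : t0 ∈ W := mul_mem (inv_mem hdW) (hWn u d hdW)
    have hz := hd e heR
    have ht0e : t0 ∈ cl e := by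
      set z := e * d * e⁻¹ * d⁻¹ with hzd
      have eu := mem_cl.1 (hQe hu)
      have eu' : u⁻¹ * e = e * u⁻¹ := by
        calc u⁻¹ * e = u⁻¹ * (e * u) * u⁻¹ := by group
          _ = u⁻¹ * (u * e) * u⁻¹ := by rw [eu]
          _ = _ := by group
      have e1 : e * d = z * d * e := by rw [hzd]; group
      have e2 : e * (u * d * u⁻¹) = z * (u * d * u⁻¹) * e := by
        calc e * (u * d * u⁻¹) = (e * u) * d * u⁻¹ := by group
          _ = u * (e * d) * u⁻¹ := by rw [← eu]; group
          _ = u * z * (d * (e * u⁻¹)) := by rw [e1]; group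
          _ = z * u * (d * (u⁻¹ * e)) := by rw [mem_center_iff.1 hz u, eu']
          _ = _ := by group
      have e3 : e * d⁻¹ = z⁻¹ * d⁻¹ * e := by
        calc e * d⁻¹ = z⁻¹ * (z * (d⁻¹ * d)) * e * d⁻¹ := by group
          _ = z⁻¹ * (d⁻¹ * z * d) * e * d⁻¹ := by
              rw [← mul_assoc z, ← mem_center_iff.1 hz d⁻¹]
          _ = z⁻¹ * d⁻¹ * (e * d) * d⁻¹ := by rw [e1]; group
          _ = _ := by group
      refine mem_cl_comm (mem_cl.2 ?_)
      calc e * t0 = (e * d⁻¹) * (u * d * u⁻¹) := by rw [ht0]; group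
        _ = z⁻¹ * d⁻¹ * (e * (u * d * u⁻¹)) := by rw [e3]; group
        _ = z⁻¹ * (d⁻¹ * z) * ((u * d * u⁻¹) * e) := by rw [e2]; group
        _ = z⁻¹ * (z * d⁻¹) * ((u * d * u⁻¹) * e) := by rw [mem_center_iff.1 hz d⁻¹]
        _ = _ := by rw [ht0]; group
    have hcomm := h.symm.primaryComm hr.out (hxr.cj g) hei hrm r q hr.out hq.out hrq t0 ht0e u (hQe hu)
      (IsEl.of_mem_pGroup R.2 (hWR ht0W)) huq
    have hit : ∀ l : ℕ, u ^ l * d * (u ^ l)⁻¹ = d * t0 ^ l := by
      intro l
      induction l with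
      | zero => simp
      | succ l ih =>
        have hc : Commute u (t0 ^ l) := Commute.pow_right hcomm.symm l
        calc u ^ (l + 1) * d * (u ^ (l + 1))⁻¹ = u * (u ^ l * d * (u ^ l)⁻¹) * u⁻¹ := by
              rw [pow_succ']; group
          _ = u * d * u⁻¹ * (u * t0 ^ l * u⁻¹) := by rw [ih]; group
          _ = u * d * u⁻¹ * t0 ^ l := by rw [hc.eq, mul_inv_cancel_right]
          _ = d * t0 * t0 ^ l := by rw [ht0]; group
          _ = _ := by rw [mul_assoc, pow_succ']
    have h1 : t0 ^ orderOf u = 1 := by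
      have := hit (orderOf u)
      rwa [pow_orderOf_eq_one, inv_one, mul_one, one_mul, left_eq_mul] at this
    have h2 : t0 = 1 := orderOf_eq_one_iff.1 (Nat.eq_one_of_dvd_coprimes
      ((IsEl.of_mem_pGroup R.2 (hWR ht0W)).coprime hr.out (huq.not_dvd hq.out hr.out (Ne.symm hrq)))
      dvd_rfl (orderOf_dvd_of_pow_eq_one h1))
    have h3 := hit 1
    rw [pow_one, h2, one_pow, mul_one] at h3
    exact mem_cl.2 (mul_inv_eq_iff_eq_mul.1 h3)
  have hdn : idx d = n := by
    obtain ⟨Q1⟩ : Nonempty (Sylow q G) := inferInstance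
    have hnd := sylow_idx_not_dvd Q1 (hQd Q1)
    rcases h.noncentral hdZ with e | e | e
    · exact e
    · exact absurd (hqm.trans (dvd_of_eq e.symm)) hnd
    · exact absurd ((hqm.mul_left n).trans (dvd_of_eq e.symm)) hnd
  refine ⟨fun a ha g => ?_⟩
  have hga : IsEl q (g * a * g⁻¹) := (IsEl.of_mem_pGroup Q.2 ha).cj g
  obtain ⟨Q', hQ'⟩ := exists_sylow_mem hga
  exact (h.symm.primaryComm hr.out hdr hdn hrm).mem_sylow Q (hQd Q) (hQd Q' hQ') hga

end Cfsg.Agent.Lib.ClassNMN
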