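import Mathlib
import Cfsg.Agent.Lib.ClassNMN.Basic

/-!
Class sizes `1`, `n`, `m`, `n * m`: a primary element in a class of size `n` commutes with every primary
element in a class of size `m`, when all their primes divide the other parameter.
-/

set_option autoImplicit false

namespace Cfsg.Agent.Lib.ClassNMN

open Subgroup ClassOMN

universe u

variable {G : Type u} [Group G] {n m : ℕ}

/-- Primary elements in classes of size `m` belong to primes dividing `n`, and conversely. -/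
def Crossed (G : Type u) [Group G] (n m : ℕ) : Prop :=
  (∀ (s : ℕ) (y : G), s.Prime → IsEl s y → idx y = m → s ∣ n) ∧
    ∀ (s : ℕ) (x : G), s.Prime → IsEl s x → idx x = n → s ∣ m

theorem Crossed.symm (hb : Crossed G n m) : Crossed G m n := ⟨hb.2, hb.1⟩

theorem el_coprime {p q : ℕ} (hp : p.Prime) (hq : q.Prime) (hne : p ≠ q) {a b : G} (ha : IsEl p a)
    (hb : IsEl q b) : (orderOf a).Coprime (orderOf b) :=
  ha.coprime hp (hb.not_dvd hq hp hne.symm)

variable [Finite G]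

theorem Hyp.ne_of_dvd (h : Hyp G n m) {p q : ℕ} (hp : p.Prime) (hpn : p ∣ n) (hqm : q ∣ m) :
    p ≠ q := fun e => h.not_dvd hp hpn (e ▸ hqm)

/-- An element of a prime dividing `n` has class size `m` or `n * m`. -/
theorem Crossed.cases (hb : Crossed G n m) (h : Hyp G n m) {p : ℕ} (hp : p.Prime) (hpn : p ∣ n)
    {v : G} (hv : IsEl p v) (hvZ : v ∉ center G) : idx v = m ∨ idx v = n * m :=
  (h.noncentral hvZ).resolve_left fun e => h.not_dvd hp hpn (hb.2 p v hp hv e)

/-- No element of `n * m` class in the centralizer of `x` when `x` avoids the conjugates of `y`. -/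
theorem idx_m_of_mem (hb : Crossed G n m) (h : Hyp G n m) {p q : ℕ} (hp : p.Prime) (hpn : p ∣ n)
    (hq : q.Prime) (hqm : q ∣ m) {x y : G} (hxq : IsEl q x) (hy : idx y = m)
    (hnone : ∀ g, g * y * g⁻¹ ∉ cl x) {s : G} (hs : s ∈ cl x) (hsp : IsEl p s)
    (hsZ : s ∉ center G) : idx s = m := by
  refine (hb.cases h hp hpn hsp hsZ).resolve_right fun e => ?_
  have : Fact p.Prime := ⟨hp⟩
  obtain ⟨g, hg⟩ := exists_conj_mem (y := y) (hy ▸ h.not_dvd hp hpn) hsp
  exact hnone g (h.cl_le_of_nm e (mem_cl_comm hs)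
    (el_coprime hp hq (h.ne_of_dvd hp hpn hqm) hsp hxq) hg)

/-- The prime of `y` divides the orders of the smallest centralizers. -/
theorem dvd_kk_of_pair (hb : Crossed G n m) (h : Hyp G n m) {p : ℕ} (hp : p.Prime) (hpn : p ∣ n)
    {x y z : G} (hx : idx x = n) (hyp : IsEl p y) (hy : idx y = m) (hz : idx z = n * m)
    (hnone : ∀ g, g * y * g⁻¹ ∉ cl x) : p ∣ kk z := by
  by_contra hK
  have : Fact p.Prime := ⟨hp⟩
  have hp' : ∀ w ∈ cl y, ¬ p ∣ orderOf w → cl y ≤ cl w := by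
    intro w hw hwp
    have hle := cl_mul_le (mem_cl.1 hw).symm (hyp.coprime hp hwp)
    have hm : idx (y * w) = m := (h.of_dvd (hy ▸ index_dvd_of_le (hle.trans inf_le_left))).resolve_right
      fun e => hK (h.kk_eq hz e ▸ dvd_relIndex hp
        (inf_le_cl_mul y w (mem_inf.2 ⟨self_mem_cl y, mem_cl_comm hw⟩)) hyp
        (h.not_mem_center (Or.inr (Or.inl hy))))
    rw [← cl_eq_of_le_of_idx (hle.trans inf_le_left) (hm.trans hy.symm)]
    exact hle.trans inf_le_right
  obtain ⟨s, hs, hsd⟩ := Nat.exists_prime_and_dvd (h.kk_one_lt hz).ne'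
  have hsp : s ≠ p := fun e => hK (e ▸ hsd)
  have : Fact s.Prime := ⟨hs⟩
  obtain ⟨c, hc, hcs, hcZ⟩ := exists_el hs (h.dvd_kk_m hy hz hsd : s ∣ kk y)
  have hle := hp' c hc (hcs.not_dvd hs hp hsp)
  have hcm : idx c = m := by
    have hd : idx c ∣ m := hy ▸ index_dvd_of_le hle
    rcases h.noncentral hcZ with e | e | e
    · rw [e] at hd
      have := h.hcop.gcd_eq_one
      rw [Nat.gcd_eq_left hd] at this
      have := h.hn
      omega
    · exact e
    · rw [e] at hd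
      have := Nat.le_of_dvd (by have := h.hm; omega) hd
      have := h.m_lt
      omega
  have hsn : s ∣ n := hb.1 s c hs hcs hcm
  obtain ⟨d, hd, hds, hdZ⟩ := exists_el hs (h.dvd_kk_n hx hz hsd : s ∣ kk x)
  obtain ⟨g, hg⟩ := exists_conj_mem (y := y) (hy ▸ h.not_dvd hs hsn) hds
  have hdy : d ∈ cl (g * y * g⁻¹) := mem_cl_comm hg
  have hd' : g⁻¹ * d * g ∈ cl y := by rwa [cl_cj, mem_cj] at hdy
  have hd's : IsEl s (g⁻¹ * d * g) := by simpa using hds.cj g⁻¹
  have hle' := hp' _ hd' (hd's.not_dvd hs hp hsp)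
  have hidx : idx (g⁻¹ * d * g) = m := by
    have hdv : idx (g⁻¹ * d * g) ∣ m := hy ▸ index_dvd_of_le hle'
    refine (hb.cases h hs hsn hd's ?_).resolve_right fun e => ?_
    · intro hc'
      exact hdZ (by simpa [mul_assoc] using (conj_mem_center_iff (g := g)).2 hc')
    · rw [e] at hdv
      have := Nat.le_of_dvd (by have := h.hm; omega) hdv
      have := h.m_lt
      omega
  have heq := cl_eq_of_le_of_idx hle' (hy.trans hidx.symm)
  refine hnone g (mem_cl_comm ?_)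
  rw [cl_cj, mem_cj, heq]
  have := mem_cl_comm hd
  rw [mem_cl] at this ⊢
  calc g⁻¹ * x * g * (g⁻¹ * d * g) = g⁻¹ * (x * d) * g := by group
    _ = g⁻¹ * (d * x) * g := by rw [this]
    _ = _ := by group

/-- The prime of `y` has no elements in classes of size `n * m`. -/
theorem no_nm_of_pair (hb : Crossed G n m) (h : Hyp G n m) {p q : ℕ} (hp : p.Prime) (hpn : p ∣ n)
    (hq : q.Prime) (hqm : q ∣ m) {x y : G} (hxq : IsEl q x) (hx : idx x = n) (hyp : IsEl p y)
    (hy : idx y = m) (hnone : ∀ g, g * y * g⁻¹ ∉ cl x) :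
    ∀ w : G, IsEl p w → idx w ≠ n * m := by
  intro w hw hwi
  have : Fact p.Prime := ⟨hp⟩
  have : Fact q.Prime := ⟨hq⟩
  obtain ⟨s, hs, hsp, hsZ⟩ := exists_el hp
    (h.dvd_kk_n hx hwi (dvd_kk_of_pair hb h hp hpn hx hyp hy hwi hnone) : p ∣ kk x)
  have hsm := idx_m_of_mem hb h hp hpn hq hqm hxq hy hnone hs hsp hsZ
  obtain ⟨g, hg⟩ := exists_conj_mem (y := s) (hsm ▸ h.not_dvd hp hpn) hw
  set x' := g * x * g⁻¹ with hx'
  set s' := g * s * g⁻¹ with hs'
  have hxs : x' ∈ cl s' := by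
    rw [hs', cl_cj, mem_cj]
    simpa [hx', mul_assoc] using mem_cl_comm hs
  obtain ⟨T, hTw, hT, hTi⟩ := exists_sylow_sub q (cl w)
  have hpq := h.ne_of_dvd hp hpn hqm
  have hTs : T ≤ cl s' := fun c hc => mem_cl_comm
    (h.cl_le_of_nm hwi (hTw hc) (el_coprime hp hq hpq hw (IsEl.of_mem_pGroup hT hc)) hg)
  have hTi' : ¬ q ∣ T.relIndex (cl s') :=
    not_dvd_relIndex hq hTw hTs hTi (h.not_dvd' hq hqm) (by
      rw [show (cl w).index = n * m from hwi, show (cl s').index = m from (idx_cj g s).trans hsm])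
  obtain ⟨k, -, hk⟩ := exists_conj_into hT hTs hTi' hxs (hxq.cj g)
  obtain ⟨g2, hg2⟩ := exists_conj_mem (y := y) (hy ▸ h.not_dvd hp hpn) hw
  have := h.cl_le_of_nm hwi (hTw hk) (el_coprime hp hq hpq hw ((hxq.cj g).cj k)) hg2
  rw [hx', ← mul_assoc, ← mul_assoc] at this
  rw [show k * g * x * g⁻¹ * k⁻¹ = (k * g) * x * (k * g)⁻¹ by group, cl_cj, mem_cj] at this
  exact hnone ((k * g)⁻¹ * g2) (by convert this using 1; group)

/-- A `p`-element normalizing a coset of a normal subgroup of order prime to `p` and `q` centralizes a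
`q`-element of the coset. -/
theorem exists_fixed_conj {p q : ℕ} (hp : p.Prime) (hq : q.Prime) (hne : p ≠ q) (J : Subgroup G)
    [J.Normal] (hpJ : ¬ p ∣ Nat.card J) (hqJ : ¬ q ∣ Nat.card J) {x g : G} (hx : IsEl q x)
    (hg : IsEl p g) (hgx : x⁻¹ * (g * x * g⁻¹) ∈ J) : ∃ j ∈ J, g ∈ cl (j * x * j⁻¹) := by
  classical
  have : Fact p.Prime := ⟨hp⟩
  have : Fact q.Prime := ⟨hq⟩
  set T := zpowers x
  have hdisj : ∀ t ∈ T, t ∈ J → t = 1 := fun t ht htJ => by
    obtain ⟨k, hk⟩ := hx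
    exact orderOf_eq_one_iff.1 (Nat.eq_one_of_dvd_coprimes
      ((hq.coprime_iff_not_dvd.2 hqJ).pow_left k) ((orderOf_dvd_of_mem_zpowers ht).trans hk)
      (Subgroup.orderOf_dvd_natCard J htJ))
  set M := J ⊔ T
  have hTM : ¬ q ∣ T.relIndex M := by
    have e1 : Nat.card J * J.relIndex M = Nat.card M := by
      rw [← relIndex_bot_left, relIndex_mul_relIndex _ _ _ bot_le le_sup_left, relIndex_bot_left]
    have e2 : Nat.card T * T.relIndex M = Nat.card M := by
      rw [← relIndex_bot_left, relIndex_mul_relIndex _ _ _ bot_le le_sup_right, relIndex_bot_left]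
    have e3 : J.relIndex M = Nat.card T := by
      rw [show M = T ⊔ J from sup_comm _ _, relIndex_sup_right, ← relIndex_bot_left]
      refine (inf_relIndex_right J T).symm.trans (congrArg (fun H : Subgroup G => H.relIndex T) ?_)
      exact eq_bot_iff.2 fun t ht => mem_bot.2 (hdisj t ht.2 ht.1)
    rw [e3, ← e2, mul_comm (Nat.card J)] at e1
    exact (Nat.eq_of_mul_eq_mul_left Nat.card_pos e1) ▸ hqJ
  let N := {c : G | ∃ j ∈ J, c = j * x * j⁻¹}
  have hgN : ∀ c ∈ N, g * c * g⁻¹ ∈ N := by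
    rintro _ ⟨j, hj, rfl⟩
    have hxM : g * x * g⁻¹ ∈ M := by
      rw [← mul_inv_cancel_left x (g * x * g⁻¹)]
      exact mul_mem (mem_sup_right (mem_zpowers x)) (mem_sup_left hgx)
    obtain ⟨μ, hμ, hμx⟩ := exists_conj_into hx.isPGroup le_sup_right hTM hxM (hx.cj g)
    obtain ⟨j', hj', t, ht, rfl⟩ := mem_sup_of_normal_left.1 hμ
    have e : j' * t * (g * x * g⁻¹) * (j' * t)⁻¹ = x := by
      refine (mul_inv_eq_one.1 (hdisj _ (mul_mem hμx (inv_mem (mem_zpowers x))) ?_))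
      rw [← QuotientGroup.eq_one_iff]
      have hq1 : (QuotientGroup.mk (g * x * g⁻¹) : G ⧸ J) = QuotientGroup.mk x :=
        (QuotientGroup.eq.2 hgx).symm
      obtain ⟨l, rfl⟩ := mem_zpowers_iff.1 ht
      rw [QuotientGroup.mk_mul, QuotientGroup.mk_mul, QuotientGroup.mk_mul, QuotientGroup.mk_inv,
        QuotientGroup.mk_inv, hq1, QuotientGroup.mk_mul, (QuotientGroup.eq_one_iff j').2 hj',
        one_mul, QuotientGroup.mk_zpow]
      group
    refine ⟨g * j * g⁻¹ * (t⁻¹ * j'⁻¹ * t), mul_mem (‹J.Normal›.conj_mem j hj g) (by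
      simpa using ‹J.Normal›.conj_mem _ (inv_mem hj') t⁻¹), ?_⟩
    have htx : t * x = x * t := mem_cl.1 (mem_cl_of_mem_zpowers ht (mem_zpowers x))
    have ht' : t⁻¹ * x * t = x := by rw [mul_assoc, ← htx, inv_mul_cancel_left]
    calc g * (j * x * j⁻¹) * g⁻¹ = (g * j * g⁻¹) * (g * x * g⁻¹) * (g * j * g⁻¹)⁻¹ := by group
      _ = (g * j * g⁻¹) * ((t⁻¹ * j'⁻¹) * (j' * t * (g * x * g⁻¹) * (j' * t)⁻¹) * (j' * t)) *
          (g * j * g⁻¹)⁻¹ := by group
      _ = (g * j * g⁻¹) * ((t⁻¹ * j'⁻¹) * (t * (t⁻¹ * x * t) * t⁻¹) * (j' * t)) *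
          (g * j * g⁻¹)⁻¹ := by rw [e]; group
      _ = (g * j * g⁻¹) * ((t⁻¹ * j'⁻¹) * (t * x * t⁻¹) * (j' * t)) * (g * j * g⁻¹)⁻¹ := by rw [ht']
      _ = _ := by group
  have hinv : ∀ c ∈ zpowers g, ∀ y ∈ N, c * y * c⁻¹ ∈ N := by
    intro c hc
    obtain ⟨l, rfl⟩ := mem_powers_iff_mem_zpowers.2 hc
    change ∀ y ∈ N, g ^ l * y * (g ^ l)⁻¹ ∈ N
    induction l with
    | zero => simp
    | succ l ih => exact fun y hy => by simpa [pow_succ, mul_assoc] using ih (mem_zpowers_iff.2 ⟨l, by simp⟩) _ (hgN y hy)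
  let X := {c : G // c ∈ N}
  letI : MulAction J X :=
    { smul := fun a c => ⟨a * c.1 * (a : G)⁻¹, by
        obtain ⟨j, hj, e⟩ := c.2
        exact ⟨a * j, mul_mem a.2 hj, by rw [e]; group⟩⟩
      one_smul := fun c => Subtype.ext (show ((1 : J) : G) * c.1 * ((1 : J) : G)⁻¹ = c.1 by simp)
      mul_smul := fun a b c => Subtype.ext (show ((a * b : J) : G) * c.1 * ((a * b : J) : G)⁻¹ =
        (a : G) * ((b : G) * c.1 * (b : G)⁻¹) * (a : G)⁻¹ by simp [mul_assoc]) }
  letI : MulAction (zpowers g) X :=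
    { smul := fun a c => ⟨a * c.1 * (a : G)⁻¹, hinv a a.2 c.1 c.2⟩
      one_smul := fun c => Subtype.ext
        (show ((1 : zpowers g) : G) * c.1 * ((1 : zpowers g) : G)⁻¹ = c.1 by simp)
      mul_smul := fun a b c => Subtype.ext (show ((a * b : zpowers g) : G) * c.1 *
        ((a * b : zpowers g) : G)⁻¹ = (a : G) * ((b : G) * c.1 * (b : G)⁻¹) * (a : G)⁻¹ by
          simp [mul_assoc]) }
  let x0 : X := ⟨x, 1, one_mem J, by simp⟩
  have htr : ∀ c : X, ∃ a : J, a • x0 = c := fun c => by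
    obtain ⟨j, hj, e⟩ := c.2
    exact ⟨⟨j, hj⟩, Subtype.ext e.symm⟩
  have : MulAction.IsPretransitive J X := ⟨fun c d => by
    obtain ⟨a, rfl⟩ := htr c
    obtain ⟨b, rfl⟩ := htr d
    exact ⟨b * a⁻¹, by rw [smul_smul, inv_mul_cancel_right]⟩⟩
  have hX : ¬ p ∣ Nat.card X := fun hd => hpJ (hd.trans (by
    rw [← MulAction.index_stabilizer_of_transitive J x0]
    exact index_dvd_card _))
  obtain ⟨c, hc⟩ := hg.isPGroup.nonempty_fixed_point_of_prime_not_dvd_card (α := X) hX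
  obtain ⟨j, hj, e⟩ := c.2
  refine ⟨j, hj, e ▸ mem_cl.2 (mul_inv_eq_iff_eq_mul.1 ?_)⟩
  exact congrArg Subtype.val (hc ⟨g, mem_zpowers g⟩)

/-- Coprime elements commuting modulo the center commute. -/
theorem commute_of_center {p q : ℕ} (hp : p.Prime) (hq : q.Prime) (hne : p ≠ q) {g c : G}
    (hg : IsEl p g) (hc : IsEl q c) (hz : c⁻¹ * (g * c * g⁻¹) ∈ center G) : g * c = c * g := by
  set z := c⁻¹ * (g * c * g⁻¹) with hzd
  have hgc : g * c * g⁻¹ = c * z := by rw [hzd]; group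
  have hit : ∀ l : ℕ, g ^ l * c * (g ^ l)⁻¹ = c * z ^ l := by
    intro l
    induction l with
    | zero => simp
    | succ l ih =>
      calc g ^ (l + 1) * c * (g ^ (l + 1))⁻¹ = g * (g ^ l * c * (g ^ l)⁻¹) * g⁻¹ := by
            rw [pow_succ']; group
        _ = g * c * g⁻¹ * (g * z ^ l * g⁻¹) := by rw [ih]; group
        _ = c * z * z ^ l := by
            rw [hgc, mem_center_iff.1 (pow_mem hz l) g, mul_inv_cancel_right]
        _ = _ := by rw [mul_assoc, pow_succ']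
  obtain ⟨e, he⟩ := hg
  obtain ⟨f, hf⟩ := hc
  have h1 : z ^ p ^ e = 1 := by
    have := hit (p ^ e)
    rwa [orderOf_dvd_iff_pow_eq_one.1 he, inv_one, mul_one, one_mul, left_eq_mul] at this
  have h2 : z ^ q ^ f = 1 := by
    have h3 : (g * c * g⁻¹) ^ q ^ f = 1 :=
      orderOf_dvd_iff_pow_eq_one.1 ((orderOf_cj g c).symm ▸ hf)
    rw [hgc, Commute.mul_pow (show Commute c z from mem_center_iff.1 hz c), orderOf_dvd_iff_pow_eq_one.1 hf,
      one_mul] at h3
    exact h3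
  have : z = 1 := orderOf_eq_one_iff.1 (Nat.eq_one_of_dvd_coprimes
    (((Nat.coprime_primes hp hq).2 hne).pow e f) (orderOf_dvd_of_pow_eq_one h1)
    (orderOf_dvd_of_pow_eq_one h2))
  rw [this, mul_one] at hgc
  exact mul_inv_eq_iff_eq_mul.1 hgc

/-- Two elements in classes of size `n` with a separating element share a noncentral element of
prime `p` in their normal closures, but none of prime `q`. -/
theorem common (hb : Crossed G n m) (h : Hyp G n m) {p q : ℕ} (hp : p.Prime) (hpn : p ∣ n)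
    (hq : q.Prime) (hqm : q ∣ m) (hP : ∀ w : G, IsEl p w → idx w ≠ n * m)
    (hQ : ∀ w : G, IsEl q w → idx w ≠ n * m) (hK : ∀ z : G, idx z = n * m → p ∣ kk z)
    {x x2 s : G} (hxq : IsEl q x) (hx : idx x = n) (hx2q : IsEl q x2) (hx2 : idx x2 = n)
    (hxx : x2 ∈ cl x) (hsp : IsEl p s) (hs : idx s = m) (hsx : s ∈ cl x)
    (hnone : ∀ g, g * s * g⁻¹ ∉ cl x2) :
    (∀ a ∈ normalClosure ({x} : Set G) ⊓ normalClosure ({x2} : Set G), IsEl q a → a ∈ center G) ∧
    ∃ b ∈ normalClosure ({x} : Set G) ⊓ normalClosure ({x2} : Set G), IsEl p b ∧ b ∉ center G := by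
  have : Fact p.Prime := ⟨hp⟩
  have : Fact q.Prime := ⟨hq⟩
  have hpn' := h.not_dvd hp hpn
  have hcent : ∀ {x v : G}, idx x = n → IsEl p v → v ∈ cl x →
      normalClosure ({x} : Set G) ≤ cl v := by
    intro x v hx hv hvx
    by_cases hvZ : v ∈ center G
    · exact (cl_eq_top hvZ).symm ▸ le_top
    · exact h.pairing_closure hx ((hb.cases h hp hpn hv hvZ).resolve_right (hP v hv)) hvx
  set I := normalClosure ({x} : Set G) ⊓ normalClosure ({x2} : Set G) with hI
  have hqpart : ∀ a ∈ I, IsEl q a → a ∈ center G := by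
    intro a ha haq
    by_contra haZ
    have han : idx a = n := by
      rcases hb.symm.cases h.symm hq hqm haq haZ with e | e
      · exact e
      · exact absurd (e.trans (mul_comm m n)) (hQ a haq)
    obtain ⟨T, hTx, hT, hTi⟩ := exists_sylow_sub p (cl x2)
    have hTa : T ≤ cl a := fun v hv =>
      mem_cl_comm (hcent hx2 (IsEl.of_mem_pGroup hT hv) (hTx hv) ha.2)
    have hTi' : ¬ p ∣ T.relIndex (cl a) := not_dvd_relIndex hp hTx hTa hTi hp.not_dvd_one (by
      rw [one_mul]; exact hx2.trans han.symm)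
    obtain ⟨k, -, hk⟩ := exists_conj_into hT hTa hTi' (mem_cl_comm (hcent hx hsp hsx ha.1)) hsp
    exact hnone k (hTx hk)
  refine ⟨hqpart, ?_⟩
  by_contra! hcon
  have hcom : Commute x x2 := (mem_cl.1 hxx).symm
  have hwq : IsEl q (x * x2) := by
    obtain ⟨i, hi⟩ := hxq
    obtain ⟨j, hj⟩ := hx2q
    refine ⟨i + j, orderOf_dvd_of_pow_eq_one ?_⟩
    rw [hcom.mul_pow, orderOf_dvd_iff_pow_eq_one.1 (hi.trans (pow_dvd_pow q (Nat.le_add_right i j))),
      orderOf_dvd_iff_pow_eq_one.1 (hj.trans (pow_dvd_pow q (Nat.le_add_left j i))), one_mul]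
  have hwZ : x * x2 ∉ center G := by
    intro hw
    refine hnone 1 ?_
    have h1 : cl x ≤ cl x2 := fun c hc => mem_cl.2 (by
      have e1 := mem_cl.1 hc
      have e2 := mem_center_iff.1 hw c
      calc c * x2 = x⁻¹ * (x * c) * x2 := by group
        _ = x⁻¹ * (c * x) * x2 := by rw [e1]
        _ = x⁻¹ * (x * x2 * c) := by rw [← e2]; group
        _ = _ := by group)
    simpa using h1 hsx
  have hwn : idx (x * x2) = n := by
    rcases hb.symm.cases h.symm hq hqm hwq hwZ with e | e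
    · exact e
    · exact absurd (e.trans (mul_comm m n)) (hQ _ hwq)
  have key : ∀ g ∈ cl (x * x2), IsEl p g → g ∈ cl x := by
    intro g hg hgp
    by_cases hgZ : g ∈ center G
    · exact center_le_cl x hgZ
    have hgm := (hb.cases h hp hpn hgp hgZ).resolve_right (hP g hgp)
    have haI : x⁻¹ * (g * x * g⁻¹) ∈ I := by
      refine mem_inf.2 ⟨mul_mem (inv_mem (subset_normalClosure (Set.mem_singleton x)))
        (normalClosure_normal.conj_mem x (subset_normalClosure (Set.mem_singleton x)) g), ?_⟩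
      have e : x⁻¹ * (g * x * g⁻¹) = x2 * (g * x2 * g⁻¹)⁻¹ := by
        have e1 := mem_cl.1 hg
        calc x⁻¹ * (g * x * g⁻¹) = x⁻¹ * (g * (x * x2) * g⁻¹) * (g * x2 * g⁻¹)⁻¹ := by group
          _ = x⁻¹ * (x * x2 * g * g⁻¹) * (g * x2 * g⁻¹)⁻¹ := by rw [e1]
          _ = _ := by group
      rw [e]
      exact mul_mem (subset_normalClosure (Set.mem_singleton x2))
        (inv_mem (normalClosure_normal.conj_mem x2 (subset_normalClosure (Set.mem_singleton x2)) g))
    have : I.Normal := Subgroup.normal_inf_normal _ _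
    let π := QuotientGroup.mk' (center G)
    have : (I.map π).Normal := Normal.map inferInstance π (QuotientGroup.mk'_surjective _)
    have hcard : Nat.card (I.map π) = (center G).relIndex I := by
      rw [← relIndex_bot_left, ← Subgroup.map_bot π, relIndex_map_map, QuotientGroup.ker_mk',
        bot_sup_eq, relIndex_sup_right]
    obtain ⟨e, he⟩ := hgp
    obtain ⟨f, hf⟩ := hxq
    obtain ⟨j', hj', hjc⟩ := exists_fixed_conj hp hq (h.ne_of_dvd hp hpn hqm) (I.map π)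
      (fun hd => by
        obtain ⟨c, hc, hcp, hcZ⟩ := exists_el hp (hcard ▸ hd)
        exact hcZ (hcon c hc hcp))
      (fun hd => by
        obtain ⟨c, hc, hcp, hcZ⟩ := exists_el hq (hcard ▸ hd)
        exact hcZ (hqpart c hc hcp))
      (x := π x) (g := π g) ⟨f, (orderOf_map_dvd π x).trans hf⟩
      ⟨e, (orderOf_map_dvd π g).trans he⟩ ⟨_, haI, by simp⟩
    obtain ⟨j, -, rfl⟩ := mem_map.1 hj'
    set c := j * x * j⁻¹ with hc
    have hz : c⁻¹ * (g * c * g⁻¹) ∈ center G := by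
      refine (QuotientGroup.eq_one_iff _).1 ?_
      change π (c⁻¹ * (g * c * g⁻¹)) = 1
      have hjc' : π g * π c = π c * π g := by simpa [hc] using mem_cl.1 hjc
      rw [map_mul, map_inv, map_mul π (g * c), map_mul π g c, map_inv, hjc']
      group
    have hgc := commute_of_center hp hq (h.ne_of_dvd hp hpn hqm) ⟨e, he⟩ (IsEl.cj ⟨f, hf⟩ j) hz
    have h2 : j⁻¹ * g * j⁻¹⁻¹ ∈ cl x := by
      rw [inv_inv]
      have h3 : g ∈ cl (j * x * j⁻¹) := mem_cl.2 hgc
      rwa [cl_cj, mem_cj] at h3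
    simpa using h.pairing hx hgm h2 1
  obtain ⟨T, hTw, hT, hTi⟩ := exists_sylow_sub p (cl (x * x2))
  have hTx : T ≤ cl x := fun g hg => key g (hTw hg) (IsEl.of_mem_pGroup hT hg)
  have hTi' : ¬ p ∣ T.relIndex (cl x) := not_dvd_relIndex hp hTw hTx hTi hp.not_dvd_one (by
    rw [one_mul]; exact hwn.trans hx.symm)
  obtain ⟨k, hkx, hk⟩ := exists_conj_into hT hTx hTi' hsx hsp
  refine hnone k (mem_cl.2 ?_)
  have e1 := mem_cl.1 (hTw hk)
  have e2 := mem_cl.1 (hTx hk)
  set g := k * s * k⁻¹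
  calc g * x2 = x⁻¹ * (x * g) * x2 := by group
    _ = x⁻¹ * (g * x) * x2 := by rw [e2]
    _ = x⁻¹ * (g * (x * x2)) := by group
    _ = x⁻¹ * (x * x2 * g) := by rw [e1]
    _ = _ := by group

theorem none_symm {x y : G} (hnone : ∀ g, g * y * g⁻¹ ∉ cl x) : ∀ g, g * x * g⁻¹ ∉ cl y := by
  intro g hg
  refine hnone g⁻¹ (mem_cl_comm ?_)
  rw [cl_cj, mem_cj]
  simpa using hg

/-- Primary elements of crossed primes in classes of sizes `n` and `m` commute. -/
theorem Crossed.commute (hb : Crossed G n m) (h : Hyp G n m) {p q : ℕ} (hp : p.Prime) (hq : q.Prime)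
    {x y : G} (hxq : IsEl q x) (hx : idx x = n) (hyp : IsEl p y) (hy : idx y = m) : y ∈ cl x := by
  by_contra hxy
  have hpn := hb.1 p y hp hyp hy
  have hqm := hb.2 q x hq hxq hx
  have : Fact p.Prime := ⟨hp⟩
  have : Fact q.Prime := ⟨hq⟩
  have hnone : ∀ g, g * y * g⁻¹ ∉ cl x := fun g hg => hxy (by simpa using h.pairing hx hy hg 1)
  have hK : ∀ z : G, idx z = n * m → p ∣ kk z := fun z hz =>
    dvd_kk_of_pair hb h hp hpn hx hyp hy hz hnone
  have hK' : ∀ z : G, idx z = n * m → q ∣ kk z := fun z hz =>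
    dvd_kk_of_pair hb.symm h.symm hq hqm hy hxq hx (hz.trans (mul_comm n m)) (none_symm hnone)
  have hP := no_nm_of_pair hb h hp hpn hq hqm hxq hx hyp hy hnone
  have hQ : ∀ w : G, IsEl q w → idx w ≠ n * m := fun w hw e =>
    no_nm_of_pair hb.symm h.symm hq hqm hp hpn hyp hy hxq hx (none_symm hnone) w hw
      (e.trans (mul_comm n m))
  have hQn : ∀ {w : G}, IsEl q w → w ∉ center G → idx w = n := fun {w} hw hwZ =>
    (hb.symm.cases h.symm hq hqm hw hwZ).resolve_right fun e => hQ w hw (e.trans (mul_comm m n))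
  have hPm : ∀ {w : G}, IsEl p w → w ∉ center G → idx w = m := fun {w} hw hwZ =>
    (hb.cases h hp hpn hw hwZ).resolve_right (hP w hw)
  obtain ⟨z, hz⟩ := h.exists_nm
  obtain ⟨x2, hx2y, hx2q, hx2Z⟩ := exists_el hq (h.dvd_kk_m hy hz (hK' z hz) : q ∣ kk y)
  obtain ⟨g, hg⟩ := exists_conj_mem (y := x) (hx ▸ h.not_dvd' hq hqm) hx2q
  have hnone' : ∀ k, k * y * k⁻¹ ∉ cl (g * x * g⁻¹) := fun k hk => by
    rw [cl_cj, mem_cj] at hk
    exact hnone (g⁻¹ * k) (by convert hk using 1; group)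
  obtain ⟨hI, b, hbI, hbp, hbZ⟩ := common hb h hp hpn hq hqm hP hQ hK hx2q (hQn hx2q hx2Z) (hxq.cj g)
    ((idx_cj g x).trans hx) hg hyp hy (mem_cl_comm hx2y) hnone'
  have hbm := hPm hbp hbZ
  obtain ⟨c, hcb, hcq, hcZ⟩ := exists_el hq (h.dvd_kk_m hbm hz (hK' z hz) : q ∣ kk b)
  have hcn := hQn hcq hcZ
  obtain ⟨P⟩ : Nonempty (Sylow p G) := inferInstance
  obtain ⟨v, hvP, hvc⟩ : ∃ v ∈ (P : Subgroup G), v ∉ cl c := by
    by_contra! hcon
    exact sylow_idx_not_dvd P hcon (hpn.trans (dvd_of_eq hcn.symm))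
  have hvp := IsEl.of_mem_pGroup P.2 hvP
  have hvZ : v ∉ center G := fun hv => hvc (center_le_cl c hv)
  obtain ⟨k, hk⟩ := exists_conj_mem (y := v) ((hPm hvp hvZ) ▸ h.not_dvd hp hpn) hbp
  have hnone2 : ∀ l, l * c * l⁻¹ ∉ cl (k * v * k⁻¹) := by
    refine none_symm fun l hl => hvc ?_
    have : l * k * v * (l * k)⁻¹ ∈ cl c := by convert hl using 1; group
    simpa using h.pairing hcn (hPm hvp hvZ) this 1
  obtain ⟨-, a, ha, haq, haZ⟩ := common hb.symm h.symm hq hqm hp hpn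
    (fun w hw e => hQ w hw (e.trans (mul_comm m n))) (fun w hw e => hP w hw (e.trans (mul_comm m n)))
    (fun w hw => hK' w (hw.trans (mul_comm m n))) hbp hbm (hvp.cj k)
    ((idx_cj k v).trans (hPm hvp hvZ)) hk hcq hcn hcb hnone2
  exact haZ (hI a (normalClosure_le_normal (Set.singleton_subset_iff.2 hbI) ha.1) haq)

end Cfsg.Agent.Lib.ClassNMN
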