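import Mathlib
import Cfsg.Agent.Lib.ClassNMN.Pair

/-!
Class sizes `1`, `n`, `m`, `n * m`: the crossed configuration is impossible.
-/

set_option autoImplicit false

namespace Cfsg.Agent.Lib.ClassNMN

open Subgroup ClassOMN

universe u

variable {G : Type u} [Group G] [Finite G] {n m : ℕ}

theorem dvd_kk_crossed (hb : Crossed G n m) (h : Hyp G n m) {p q : ℕ} (hp : p.Prime) (hq : q.Prime)
    {x y z : G} (hxq : IsEl q x) (hx : idx x = n) (hyp : IsEl p y) (hy : idx y = m)
    (hz : idx z = n * m) : q ∣ kk z := by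
  have hne := (h.ne_of_dvd hp (hb.1 p y hp hyp hy) (hb.2 q x hq hxq hx)).symm
  have hc := hb.commute h hp hq hxq hx hyp hy
  rw [← h.kk_eq (h.idx_mul hc (el_coprime hq hp hne hxq hyp) hx hy) hz]
  exact dvd_relIndex hq (inf_le_cl_mul x y (mem_inf.2 ⟨self_mem_cl x, mem_cl_comm hc⟩)) hxq
    (h.not_mem_center (Or.inl hx))

/-- An element in a largest class commutes with an element in a class of size `n`. -/
theorem exists_n_mem (hb : Crossed G n m) (h : Hyp G n m) {p q r : ℕ} (hp : p.Prime) (hq : q.Prime)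
    {x y v : G} (hxq : IsEl q x) (hx : idx x = n) (hyp : IsEl p y) (hy : idx y = m) (hr : r.Prime)
    (hrq : r ≠ q) (hvr : IsEl r v) (hv : idx v = n * m) :
    ∃ x' ∈ cl v, IsEl q x' ∧ idx x' = n := by
  have : Fact q.Prime := ⟨hq⟩
  have hqm := hb.2 q x hq hxq hx
  obtain ⟨c, hc, hcq, hcZ⟩ := exists_el hq (dvd_kk_crossed hb h hp hq hxq hx hyp hy hv : q ∣ kk v)
  rcases hb.symm.cases h.symm hq hqm hcq hcZ with e | e
  · exact ⟨c, hc, hcq, e⟩
  · obtain ⟨g, hg⟩ := exists_conj_mem (y := x) (hx ▸ h.not_dvd' hq hqm) hcq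
    refine ⟨_, ?_, hxq.cj g, (idx_cj g x).trans hx⟩
    rwa [h.cl_eq_of_nm hv hc (el_coprime hr hq hrq hvr hcq) (e.trans (mul_comm m n))]

theorem exists_el_nm (hb : Crossed G n m) (h : Hyp G n m) {p q : ℕ} (hp : p.Prime) (hq : q.Prime)
    {y : G} (hqm : q ∣ m) (hyp : IsEl p y) (hy : idx y = m) :
    ∃ u : G, IsEl q u ∧ idx u = n * m := by
  have : Fact q.Prime := ⟨hq⟩
  by_contra! hcon
  obtain ⟨Q⟩ : Nonempty (Sylow q G) := inferInstance
  have hle : (Q : Subgroup G) ≤ cl y := fun c hc => by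
    by_cases hcZ : c ∈ center G
    · exact center_le_cl y hcZ
    have hcq := IsEl.of_mem_pGroup Q.2 hc
    rcases hb.symm.cases h.symm hq hqm hcq hcZ with e | e
    · exact mem_cl_comm (hb.commute h hp hq hcq e hyp hy)
    · exact absurd (e.trans (mul_comm m n)) (hcon c hcq)
  exact sylow_idx_not_dvd Q hle (hqm.trans (dvd_of_eq hy.symm))

/-- A centralizer of a primary element in a largest class contains such elements of the other primes. -/
theorem exists_nm_mem (hb : Crossed G n m) (h : Hyp G n m) {p q r : ℕ} (hp : p.Prime) (hq : q.Prime)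
    {x y v : G} (hxq : IsEl q x) (hx : idx x = n) (hyp : IsEl p y) (hy : idx y = m) (hr : r.Prime)
    (hrq : r ≠ q) (hvr : IsEl r v) (hv : idx v = n * m) :
    ∃ u, IsEl q u ∧ idx u = n * m ∧ cl u = cl v := by
  have : Fact q.Prime := ⟨hq⟩
  have hqm := hb.2 q x hq hxq hx
  obtain ⟨T, hTv, hT, hTi⟩ := exists_sylow_sub q (cl v)
  suffices ∃ u ∈ T, idx u = n * m by
    obtain ⟨u, huT, hu⟩ := this
    exact ⟨u, IsEl.of_mem_pGroup hT huT, hu, (h.cl_eq_of_nm hv (hTv huT)
      (el_coprime hr hq hrq hvr (IsEl.of_mem_pGroup hT huT)) hu).symm⟩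
  by_contra! hcon
  obtain ⟨u, huq, hu⟩ := exists_el_nm hb h hp hq hqm hyp hy
  obtain ⟨y', hy'u, hy'p, hy'⟩ := exists_n_mem hb.symm h.symm hq hp hyp hy hxq hx hq
    (h.ne_of_dvd hp (hb.1 p y hp hyp hy) hqm).symm huq (hu.trans (mul_comm n m))
  have hTy : T ≤ cl y' := fun c hc => by
    by_cases hcZ : c ∈ center G
    · exact center_le_cl y' hcZ
    have hcq := IsEl.of_mem_pGroup hT hc
    rcases hb.symm.cases h.symm hq hqm hcq hcZ with e | e
    · exact mem_cl_comm (hb.commute h hp hq hcq e hy'p hy')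
    · exact absurd (e.trans (mul_comm m n)) (hcon c hc)
  have hTi' : ¬ q ∣ T.relIndex (cl y') := not_dvd_relIndex hq hTv hTy hTi (h.not_dvd' hq hqm)
    (by rw [show (cl v).index = n * m from hv, show (cl y').index = m from hy'])
  obtain ⟨k, -, hk⟩ := exists_conj_into hT hTy hTi' (mem_cl_comm hy'u) huq
  exact hcon _ hk ((idx_cj k u).trans hu)

/-- Centralizers of primary elements in largest classes are abelian. -/
theorem abelian_nm (hb : Crossed G n m) (h : Hyp G n m) {p q r : ℕ} (hp : p.Prime) (hq : q.Prime)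
    {x y v : G} (hxq : IsEl q x) (hx : idx x = n) (hyp : IsEl p y) (hy : idx y = m) (hr : r.Prime)
    (hrq : r ≠ q) (hvr : IsEl r v) (hv : idx v = n * m) : ∀ a ∈ cl v, cl v ≤ cl a := by
  obtain ⟨u, huq, hu, huv⟩ := exists_nm_mem hb h hp hq hxq hx hyp hy hr hrq hvr hv
  intro a ha
  obtain ⟨v1, hv1, w1, hw1, e, hv1r, hw1r⟩ := exists_decomp a hr
  have h1 := h.cl_le_of_nm hv (zpowers_le.2 ha hw1) (hvr.coprime hr hw1r)
  have h2 := h.cl_le_of_nm hu (huv ▸ zpowers_le.2 ha hv1) (el_coprime hq hr hrq.symm huq hv1r)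
  rw [huv] at h2
  exact e ▸ (le_inf h2 h1).trans (inf_le_cl_mul v1 w1)

theorem Crossed.false (hb : Crossed G n m) (h : Hyp G n m) : False := by
  obtain ⟨q, hq, x, hxq, hx⟩ := h.primary_of_n
  obtain ⟨p, hp, y, hyp, hy⟩ := h.symm.primary_of_n
  have hpn := hb.1 p y hp hyp hy
  have hqm := hb.2 q x hq hxq hx
  have hpq := h.ne_of_dvd hp hpn hqm
  have : Fact p.Prime := ⟨hp⟩
  have : Fact q.Prime := ⟨hq⟩
  set C := cl y with hC
  -- replacing the prime of an element in a largest class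
  have swap : ∀ {r : ℕ} {v : G}, r.Prime → IsEl r v → idx v = n * m →
      ∃ (s : ℕ) (w : G), s.Prime ∧ s ≠ q ∧ IsEl s w ∧ idx w = n * m ∧ cl w = cl v := by
    intro r v hr hvr hv
    by_cases hrq : r = q
    · obtain ⟨w, hwp, hw, hwv⟩ := exists_nm_mem hb.symm h.symm hq hp hyp hy hxq hx hr
        (hrq ▸ hpq.symm) hvr (hv.trans (mul_comm n m))
      exact ⟨p, w, hp, hpq, hwp, hw.trans (mul_comm m n), hwv⟩
    · exact ⟨r, v, hr, hrq, hvr, hv, rfl⟩
  have hab : ∀ {r : ℕ} {v : G}, r.Prime → IsEl r v → idx v = n * m → ∀ a ∈ cl v, cl v ≤ cl a := by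
    intro r v hr hvr hv
    obtain ⟨s, w, hs, hsq, hws, hw, hwv⟩ := swap hr hvr hv
    rw [← hwv]
    exact abelian_nm hb h hp hq hxq hx hyp hy hs hsq hws hw
  have hle : ∀ {r : ℕ} {v : G}, r.Prime → IsEl r v → idx v = n * m → v ∈ C → cl v ≤ C :=
    fun hr hvr hv hvC => hab hr hvr hv y (mem_cl_comm hvC)
  have hy1 : ∀ {r s : ℕ} {v y1 : G}, r.Prime → IsEl r v → idx v = n * m → v ∈ C → s.Prime →
      IsEl s y1 → idx y1 = m → y1 ∈ C → y1 ∈ cl v := by
    intro r s v y1 hr hvr hv hvC hs hy1s hy1 hy1C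
    obtain ⟨r', w, hr', hr'q, hwr, hw, hwv⟩ := swap hr hvr hv
    obtain ⟨x', hx'w, hx'q, hx'⟩ := exists_n_mem hb h hp hq hxq hx hyp hy hr' hr'q hwr hw
    rw [hwv] at hx'w
    have hxy := hb.commute h hp hq hx'q hx' hyp hy
    have hz : idx (x' * y) = n * m :=
      h.idx_mul hxy (el_coprime hq hp hpq.symm hx'q hyp) hx' hy
    rw [h.eq_of_le_nm ((le_inf (hab hr hvr hv x' hx'w) (hle hr hvr hv hvC)).trans
      (inf_le_cl_mul x' y)) hz]
    exact inf_le_cl_mul x' y (mem_inf.2 ⟨hb.commute h hs hq hx'q hx' hy1s hy1, hy1C⟩)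
  have hwit : ∀ s : ℕ, s.Prime → s ∣ n → ∀ S : Sylow s G, (S : Subgroup G) ≤ C →
      ∃ w ∈ (S : Subgroup G), idx w = n * m := by
    intro s hs hsn S hSC
    have : Fact s.Prime := ⟨hs⟩
    by_contra! hcon
    have : (S : Subgroup G) ≤ cl x := fun c hc => by
      by_cases hcZ : c ∈ center G
      · exact center_le_cl x hcZ
      have hcs := IsEl.of_mem_pGroup S.2 hc
      exact hb.commute h hs hq hxq hx hcs
        ((hb.cases h hs hsn hcs hcZ).resolve_right (hcon c hc))
    exact sylow_idx_not_dvd S this (hsn.trans (dvd_of_eq hx.symm))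
  have hpm : ¬ p ∣ idx y := hy ▸ h.not_dvd hp hpn
  obtain ⟨P, hPC⟩ := exists_sylow_le (H := C) hpm
  obtain ⟨w0, hw0P, hw0⟩ := hwit p hp hpn P hPC
  have hw0p := IsEl.of_mem_pGroup P.2 hw0P
  have hcenC : ∀ {s : ℕ} {y1 : G}, s.Prime → IsEl s y1 → idx y1 = m → y1 ∈ C → C ≤ cl y1 := by
    intro s y1 hs hy1s hy1' hy1C
    refine Hall.TwoClass.le_of_prime_power_mem fun r hr e he her => ?_
    have here : IsEl r e := ⟨her.choose, her.choose_spec.dvd⟩
    by_cases heZ : e ∈ center G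
    · exact center_le_cl y1 heZ
    rcases h.noncentral heZ with h1 | h1 | h1
    · exact mem_cl_comm (hb.commute h hs hr here h1 hy1s hy1')
    · exact hab hp hw0p hw0 y1 (hy1 hp hw0p hw0 (hPC hw0P) hs hy1s hy1' hy1C)
        (hy1 hp hw0p hw0 (hPC hw0P) hr here h1 he)
    · exact mem_cl_comm (hy1 hr here h1 he hs hy1s hy1' hy1C)
  have hconj : ∀ {r : ℕ} {v : G}, r.Prime → IsEl r v → idx v = n * m → v ∈ C →
      ∃ k ∈ C, cl v = cj k (cl w0) := by
    intro r v hr hvr hv hvC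
    obtain ⟨u, huq, hu, huw⟩ := exists_nm_mem hb h hp hq hxq hx hyp hy hp hpq hw0p hw0
    obtain ⟨T, hTv, hT, hTi⟩ := exists_sylow_sub q (cl v)
    have hTC : T ≤ C := hTv.trans (hle hr hvr hv hvC)
    have hTi' : ¬ q ∣ T.relIndex C := not_dvd_relIndex hq hTv hTC hTi (h.not_dvd' hq hqm)
      (by rw [show (cl v).index = n * m from hv, show C.index = m from hy])
    have huC : u ∈ C := hle hp hw0p hw0 (hPC hw0P) (huw ▸ self_mem_cl u)
    obtain ⟨k, hkC, hk⟩ := exists_conj_into hT hTC hTi' huC huq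
    refine ⟨k, hkC, ?_⟩
    rw [← huw, ← cl_cj]
    exact cl_eq_of_le_of_idx (hab hr hvr hv _ (hTv hk)) (hv.trans ((idx_cj k u).trans hu).symm)
  -- the normalizer of one of them covers `C`
  have hN : C ≤ normalizer (cl w0 : Set G) := by
    set N := normalizer (cl w0 : Set G) ⊓ C
    have hwN : cl w0 ≤ N := le_inf le_normalizer (hle hp hw0p hw0 (hPC hw0P))
    have hNC : N ≤ C := inf_le_right
    suffices C ≤ N from this.trans inf_le_left
    by_contra hcon
    obtain ⟨s, hs, hsd⟩ := Nat.exists_prime_and_dvd (fun e => hcon (relIndex_eq_one.1 e) :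
      N.relIndex C ≠ 1)
    have hwC : (cl w0).relIndex C = n := by
      have e := relIndex_mul_index (hwN.trans hNC)
      rw [show (cl w0).index = n * m from hw0, show C.index = m from hy] at e
      exact Nat.eq_of_mul_eq_mul_right (by have := h.hm; omega) e
    have hsn : s ∣ n := hsd.trans (hwC ▸ Dvd.intro_left _ (relIndex_mul_relIndex _ _ _ hwN hNC))
    have : Fact s.Prime := ⟨hs⟩
    obtain ⟨S, hSC⟩ := exists_sylow_le (H := C) (show ¬ s ∣ idx y by rw [hy]; exact h.not_dvd hs hsn)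
    obtain ⟨w, hwS, hw⟩ := hwit s hs hsn S hSC
    have hws := IsEl.of_mem_pGroup S.2 hwS
    obtain ⟨⟨d, hdC⟩, hdS, hdZ, -, hd2⟩ := exists_y (G := C)
      (S := (S : Subgroup G).subgroupOf C) (S.2.comap_of_injective C.subtype C.subtype_injective)
      le_rfl (fun g hg a ha => mul_mem (mul_mem hg ha) (inv_mem hg))
      ⟨⟨w, hSC hwS⟩, mem_subgroupOf.2 hwS, fun hwc => by
        have h1 : C ≤ cl w := fun c hc => mem_cl.2 (congrArg Subtype.val (mem_center_iff.1 hwc ⟨c, hc⟩))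
        have h2 := index_dvd_of_le h1
        rw [show (cl w).index = n * m from hw, show C.index = m from hy] at h2
        have := Nat.le_of_dvd (by have := h.hm; omega) h2
        have := h.m_lt
        omega⟩
    have hdS' : d ∈ (S : Subgroup G) := mem_subgroupOf.1 hdS
    have hds := IsEl.of_mem_pGroup S.2 hdS'
    have hdG : d ∉ center G := fun hd => hdZ (mem_center_iff.2 fun g => Subtype.ext (mem_center_iff.1 hd g))
    have hdnm : idx d = n * m := (hb.cases h hs hsn hds hdG).resolve_left fun e =>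
      hdZ (mem_center_iff.2 fun g => Subtype.ext (mem_cl.1 (hcenC hs hds e hdC g.2)))
    obtain ⟨k, hkC, hk⟩ := hconj hs hds hdnm hdC
    have hSN : cj k⁻¹ (S : Subgroup G) ≤ N := by
      intro g hg
      rw [mem_cj, inv_inv] at hg
      have hgC : k * g * k⁻¹ ∈ C := hSC hg
      refine mem_inf.2 ⟨mem_normalizer_of_cj ?_, ?_⟩
      · have e : cj (k * g * k⁻¹) (cl d) = cl d := by
          rw [← cl_cj]
          refine (cl_eq_of_le_of_idx (fun c hc => ?_) (idx_cj _ d).symm).symm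
          have hz := hd2 ⟨k * g * k⁻¹, hgC⟩ (mem_subgroupOf.2 hg)
          have e1 := congrArg Subtype.val (mem_center_iff.1 hz ⟨c, hle hs hds hdnm hdC hc⟩)
          simp only [coe_mul, coe_inv] at e1
          refine mem_cl.2 ?_
          have hzd : Commute c (k * g * k⁻¹ * d * (k * g * k⁻¹)⁻¹ * d⁻¹ * d) :=
            Commute.mul_right e1 (mem_cl.1 hc)
          simpa using hzd.eq
        rw [hk, cj_cj] at e
        have e2 := congrArg (cj k⁻¹) e
        rw [cj_cj, cj_inv_cj] at e2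
        convert e2 using 2
        group
      · have := mul_mem (mul_mem (inv_mem hkC) hgC) hkC
        simpa [mul_assoc] using this
    have hidx : ¬ s ∣ N.index := fun hd => S.not_dvd_index ((cj_index k⁻¹ (S : Subgroup G)) ▸
      hd.trans (index_dvd_of_le hSN))
    exact hidx (hsd.trans (Dvd.intro _ (relIndex_mul_index hNC)))
  have hPw : (P : Subgroup G) ≤ cl w0 := fun c hc => by
    by_cases hcZ : c ∈ center G
    · exact center_le_cl w0 hcZ
    have hcp := IsEl.of_mem_pGroup P.2 hc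
    rcases hb.cases h hp hpn hcp hcZ with e | e
    · exact hy1 hp hw0p hw0 (hPC hw0P) hp hcp e (hPC hc)
    · obtain ⟨k, hkC, hk⟩ := hconj hp hcp e (hPC hc)
      rw [cj_of_mem_normalizer (hN hkC)] at hk
      exact hk ▸ self_mem_cl c
  exact sylow_idx_not_dvd P hPw (hpn.trans (Dvd.intro m hw0.symm))

end Cfsg.Agent.Lib.ClassNMN
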